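import Cfsg.Agent.Lib.SzSylowAut.Hua
import Cfsg.Agent.Lib.Suzuki.Star
import Cfsg.Agent.Lib.Suzuki.Aut
import Cfsg.Prelude.Def_Solvable
import Cfsg.Prelude.Def_Transfer

/-! Automorphisms of a group with Suzuki coordinates. -/

set_option autoImplicit false

namespace Cfsg.Agent.Lib.SzSylowAut

open Cfsg.Agent.Lib.Suzuki

variable {F : Type*} [Field F] [Fintype F] {m : ℕ}
variable {S : Type*} [Group S] (co : F × F ≃ S)
  (hmul : ∀ a b c d : F, co (a, b) * co (c, d) = co (a + c, b + d + a ^ (2 ^ (m + 1)) * c))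

section basic

include hmul

theorem co_zero : co ((0 : F), (0 : F)) = 1 := by
  have h := hmul 0 0 0 0
  have e : ((0 : F) + 0, (0 : F) + 0 + (0 : F) ^ (2 ^ (m + 1)) * 0) = ((0 : F), (0 : F)) := by simp
  rw [e] at h
  exact mul_eq_left.mp h

theorem co_split (a b : F) : co (a, b) = co (a, 0) * co (0, b) := by
  rw [hmul]
  congr 2 <;> simp

theorem co_central (b : F) (x : S) : co ((0 : F), b) * x = x * co (0, b) := by
  obtain ⟨⟨c, d⟩, rfl⟩ := co.surjective x
  rw [hmul, hmul]
  congr 2
  · simp
  · rw [zero_pow (by positivity)]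
    ring

end basic

variable (hF : Fintype.card F = 2 ^ (2 * m + 1)) (hm : 1 ≤ m)

include hmul hF hm in
theorem co_central_imp {a b : F} (h : ∀ x : S, co (a, b) * x = x * co (a, b)) : a = 0 := by
  have h2 := two_zero hF
  by_contra ha
  obtain ⟨z, hz⟩ := exists_not_fixed hF hm
  have h1 := h (co (a * z, 0))
  rw [hmul, hmul] at h1
  have h3 := (Prod.ext_iff.mp (co.injective h1)).2
  simp only at h3
  apply hz
  have h4 : a ^ (2 ^ (m + 1)) * a * (z ^ (2 ^ (m + 1)) + z) = 0 := by
    rw [mul_pow] at h3
    linear_combination -h3 + (a ^ 2 ^ (m + 1) * a * z + a ^ (2 ^ (m + 1)) * a * z ^ 2 ^ (m + 1)) * 0 +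
      a ^ 2 ^ (m + 1) * a * z * h2
  exact (mul_eq_zero.mp h4).resolve_left (mul_ne_zero (pow_ne_zero _ ha) ha)

/-- First coordinate. -/
def fA (φ : MulAut S) (a : F) : F := (co.symm (φ (co (a, 0)))).1
/-- Second coordinate on the section. -/
def kA (φ : MulAut S) (a : F) : F := (co.symm (φ (co (a, 0)))).2
/-- Action on the centre. -/
def gA (φ : MulAut S) (b : F) : F := (co.symm (φ (co (0, b)))).2

theorem spec_section (φ : MulAut S) (a : F) : φ (co (a, 0)) = co (fA co φ a, kA co φ a) := by
  unfold fA kA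
  rw [Prod.mk.eta, Equiv.apply_symm_apply]

include hmul hF hm in
theorem spec_central (φ : MulAut S) (b : F) : φ (co (0, b)) = co (0, gA co φ b) := by
  have h1 : (co.symm (φ (co (0, b)))).1 = 0 := by
    apply co_central_imp co hmul hF hm (b := (co.symm (φ (co (0, b)))).2)
    intro x
    rw [Prod.mk.eta, Equiv.apply_symm_apply]
    obtain ⟨y, rfl⟩ := φ.surjective x
    rw [← map_mul, ← map_mul, co_central co hmul]
  have h3 : co.symm (φ (co (0, b))) = (0, gA co φ b) := Prod.ext h1 rfl
  rw [← h3, Equiv.apply_symm_apply]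

include hmul hF hm in
theorem spec_full (φ : MulAut S) (a b : F) :
    φ (co (a, b)) = co (fA co φ a, kA co φ a + gA co φ b) := by
  rw [co_split co hmul a b, map_mul, spec_section, spec_central co hmul hF hm, hmul]
  congr 2
  · simp
  · simp

include hmul hF hm in
theorem f_add (φ : MulAut S) (a c : F) : fA co φ (a + c) = fA co φ a + fA co φ c := by
  have h1 : φ (co (a, 0) * co (c, 0)) = φ (co (a, 0)) * φ (co (c, 0)) := map_mul _ _ _
  rw [hmul, spec_full co hmul hF hm, spec_section, spec_section, hmul] at h1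
  exact (Prod.ext_iff.mp (co.injective h1)).1

include hmul hF hm in
theorem k_rel (φ : MulAut S) (a c : F) :
    kA co φ (a + c) + gA co φ (a ^ (2 ^ (m + 1)) * c) =
      kA co φ a + kA co φ c + (fA co φ a) ^ (2 ^ (m + 1)) * fA co φ c := by
  have h1 : φ (co (a, 0) * co (c, 0)) = φ (co (a, 0)) * φ (co (c, 0)) := map_mul _ _ _
  rw [hmul, spec_full co hmul hF hm, spec_section, spec_section, hmul] at h1
  have := (Prod.ext_iff.mp (co.injective h1)).2
  simpa using this

include hmul hF hm in
theorem g_add (φ : MulAut S) (b d : F) : gA co φ (b + d) = gA co φ b + gA co φ d := by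
  have h1 : φ (co (0, b) * co (0, d)) = φ (co (0, b)) * φ (co (0, d)) := map_mul _ _ _
  have e : co ((0 : F), b) * co (0, d) = co (0, b + d) := by
    rw [hmul]
    congr 2 <;> simp
  rw [e, spec_central co hmul hF hm, spec_central co hmul hF hm, spec_central co hmul hF hm, hmul] at h1
  have := (Prod.ext_iff.mp (co.injective h1)).2
  simpa using this

include hmul hF hm in
theorem f_comp (φ ψ : MulAut S) (a : F) : fA co (φ * ψ) a = fA co φ (fA co ψ a) := by
  have h1 : (φ * ψ) (co (a, 0)) = φ (ψ (co (a, 0))) := rfl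
  rw [spec_section, spec_section, spec_full co hmul hF hm] at h1
  exact (Prod.ext_iff.mp (co.injective h1)).1

include hmul hF hm in
theorem g_comp (φ ψ : MulAut S) (b : F) : gA co (φ * ψ) b = gA co φ (gA co ψ b) := by
  have h1 : (φ * ψ) (co (0, b)) = φ (ψ (co (0, b))) := rfl
  rw [spec_central co hmul hF hm, spec_central co hmul hF hm, spec_central co hmul hF hm] at h1
  exact (Prod.ext_iff.mp (co.injective h1)).2

theorem f_one (a : F) : fA co (1 : MulAut S) a = a := by
  simp [fA]

theorem g_one (b : F) : gA co (1 : MulAut S) b = b := by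
  simp [gA]

/-- The action on the quotient by the centre, as an additive bijection. -/
noncomputable def fE (φ : MulAut S) : F ≃+ F :=
  { toFun := fA co φ
    invFun := fA co φ⁻¹
    left_inv := fun a => by rw [← f_comp co hmul hF hm, inv_mul_cancel, f_one]
    right_inv := fun a => by rw [← f_comp co hmul hF hm, mul_inv_cancel, f_one]
    map_add' := f_add co hmul hF hm φ }

/-- The action on the centre, as an additive bijection. -/
noncomputable def gE (φ : MulAut S) : F ≃+ F :=
  { toFun := gA co φ
    invFun := gA co φ⁻¹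
    left_inv := fun a => by rw [← g_comp co hmul hF hm, inv_mul_cancel, g_one]
    right_inv := fun a => by rw [← g_comp co hmul hF hm, mul_inv_cancel, g_one]
    map_add' := g_add co hmul hF hm φ }

/-- The action on the quotient by the centre. -/
noncomputable def rho : MulAut S →* Equiv.Perm F :=
  MonoidHom.mk' (fun φ => (fE co hmul hF hm φ).toEquiv)
    (fun φ ψ => by
      ext a
      exact f_comp co hmul hF hm φ ψ a)

theorem rho_apply (φ : MulAut S) (a : F) : rho co hmul hF hm φ a = fA co φ a := rfl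

include hmul hF hm in
theorem g_PP (φ : MulAut S) (a : F) : gA co φ (PP m a) = PP m (fA co φ a) := by
  have h2 := two_zero hF
  have h1 : φ (co (a, 0) * co (a, 0)) = φ (co (a, 0)) * φ (co (a, 0)) := map_mul _ _ _
  have e : co (a, 0) * co (a, 0) = co (0, PP m a) := by
    rw [hmul]
    congr 2
    · linear_combination a * h2
    · simp [PP]
  rw [e, spec_central co hmul hF hm, spec_section, hmul] at h1
  have := (Prod.ext_iff.mp (co.injective h1)).2
  simp only at this
  rw [this]
  unfold PP
  linear_combination (kA co φ a) * h2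

include hmul hF hm in
theorem structure_aut (φ : MulAut S) :
    ∃ (l : Fˣ) (σ : F ≃+* F), (∀ a, fA co φ a = (l : F) * σ a) ∧ (∀ b, gA co φ b = PP m (l : F) * σ b) :=
  key hF (fE co hmul hF hm φ) (gE co hmul hF hm φ) (g_PP co hmul hF hm φ)

/-- Building an automorphism from coordinates. -/
noncomputable def mkAut (f g : F ≃+ F) (k : F → F)
    (hc : ∀ a c, k (a + c) + g (a ^ (2 ^ (m + 1)) * c) =
      k a + k c + (f a) ^ (2 ^ (m + 1)) * f c) : MulAut S :=
  MulEquiv.ofBijective
    (MonoidHom.mk' (fun x => co (f (co.symm x).1, k (co.symm x).1 + g (co.symm x).2)) (by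
      intro x y
      obtain ⟨⟨a, b⟩, rfl⟩ := co.surjective x
      obtain ⟨⟨c, d⟩, rfl⟩ := co.surjective y
      rw [hmul]
      simp only [Equiv.symm_apply_apply]
      rw [hmul]
      congr 2
      · exact map_add f a c
      · rw [map_add g, map_add g]
        linear_combination hc a c))
    (by
      haveI : Finite S := Finite.of_equiv _ co
      rw [← Finite.injective_iff_bijective]
      intro x y hxy
      obtain ⟨⟨a, b⟩, rfl⟩ := co.surjective x
      obtain ⟨⟨c, d⟩, rfl⟩ := co.surjective y
      simp only [MonoidHom.mk'_apply, Equiv.symm_apply_apply] at hxy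
      have h3 := Prod.ext_iff.mp (co.injective hxy)
      have hac : a = c := f.injective h3.1
      subst hac
      have hbd : b = d := g.injective (add_left_cancel h3.2)
      rw [hbd])

theorem mkAut_apply (f g : F ≃+ F) (k : F → F)
    (hc : ∀ a c, k (a + c) + g (a ^ (2 ^ (m + 1)) * c) =
      k a + k c + (f a) ^ (2 ^ (m + 1)) * f c) (a b : F) :
    mkAut co hmul f g k hc (co (a, b)) = co (f a, k a + g b) := by
  show co (f (co.symm (co (a, b))).1, k (co.symm (co (a, b))).1 + g (co.symm (co (a, b))).2) = _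
  simp

omit [Fintype F] in
/-- Scalar times field automorphism. -/
noncomputable def scaleE (l : F) (hl : l ≠ 0) (σ : F ≃+* F) : F ≃+ F where
  toFun a := l * σ a
  invFun y := σ.symm (l⁻¹ * y)
  left_inv a := by simp [hl]
  right_inv y := by simp [hl]
  map_add' a b := by rw [map_add, mul_add]

omit [Fintype F] in
theorem scaleE_apply (l : F) (hl : l ≠ 0) (σ : F ≃+* F) (a : F) : scaleE l hl σ a = l * σ a := rfl

omit [Fintype F] in
theorem PP_ne {l : F} (hl : l ≠ 0) : PP m l ≠ 0 := mul_ne_zero (pow_ne_zero _ hl) hl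

/-- The automorphism of a torus element and a field automorphism. -/
noncomputable def autLS (l : Fˣ) (σ : F ≃+* F) : MulAut S :=
  mkAut co hmul (scaleE (l : F) l.ne_zero σ) (scaleE (PP m (l : F)) (PP_ne l.ne_zero) σ) (fun _ => 0)
    (fun a c => by
      simp only [scaleE_apply, map_mul, map_pow, mul_pow]
      unfold PP
      ring)

/-- The automorphism from an additive map. -/
noncomputable def autK (k : F →+ F) : MulAut S :=
  mkAut co hmul (AddEquiv.refl F) (AddEquiv.refl F) k
    (fun a c => by simp [map_add])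

theorem autK_apply (k : F →+ F) (a b : F) : autK co hmul k (co (a, b)) = co (a, k a + b) :=
  mkAut_apply co hmul _ _ _ _ a b

theorem autLS_apply (l : Fˣ) (σ : F ≃+* F) (a b : F) :
    autLS co hmul l σ (co (a, b)) = co ((l : F) * σ a, 0 + PP m (l : F) * σ b) :=
  mkAut_apply co hmul _ _ _ _ a b

theorem fA_autLS (l : Fˣ) (σ : F ≃+* F) (a : F) : fA co (autLS co hmul l σ) a = (l : F) * σ a := by
  unfold fA
  rw [autLS_apply]
  simp

theorem fA_autK (k : F →+ F) (a : F) : fA co (autK co hmul k) a = a := by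
  unfold fA
  rw [autK_apply]
  simp

theorem rho_autK (k : F →+ F) : rho co hmul hF hm (autK co hmul k) = 1 := by
  ext a
  exact fA_autK co hmul k a

theorem autK_mul (k l : F →+ F) : autK co hmul k * autK co hmul l = autK co hmul (k + l) := by
  ext x
  obtain ⟨⟨a, b⟩, rfl⟩ := co.surjective x
  show autK co hmul k (autK co hmul l (co (a, b))) = _
  rw [autK_apply, autK_apply, autK_apply]
  congr 2
  simp only [AddMonoidHom.add_apply]
  ring

theorem autK_zero : autK co hmul (0 : F →+ F) = 1 := by
  ext x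
  obtain ⟨⟨a, b⟩, rfl⟩ := co.surjective x
  rw [autK_apply]
  simp

include hmul hF hm in
theorem ker_imp (φ : MulAut S) (h : rho co hmul hF hm φ = 1) : ∃ k : F →+ F, φ = autK co hmul k := by
  have hf : ∀ a, fA co φ a = a := fun a => DFunLike.congr_fun h a
  have hg : ∀ b, gA co φ b = b := by
    intro b
    obtain ⟨a, rfl⟩ := PP_surj hF b
    rw [g_PP co hmul hF hm, hf]
  refine ⟨AddMonoidHom.mk' (kA co φ) ?_, ?_⟩
  · intro a c
    have := k_rel co hmul hF hm φ a c
    rw [hf, hf, hg] at this
    exact add_right_cancel this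
  · ext x
    obtain ⟨⟨a, b⟩, rfl⟩ := co.surjective x
    rw [spec_full co hmul hF hm, autK_apply, hf, hg]
    rfl

theorem card_ker : Nat.card (rho co hmul hF hm).ker = Nat.card (F →+ F) := by
  symm
  refine Nat.card_congr (Equiv.ofBijective
    (fun k => ⟨autK co hmul k, rho_autK co hmul hF hm k⟩) ⟨?_, ?_⟩)
  · intro k l h
    have h1 := congrArg Subtype.val h
    ext a
    have h3 : autK co hmul k (co (a, 0)) = autK co hmul l (co (a, 0)) := by
      exact congrArg (fun φ : MulAut S => φ (co (a, 0))) h1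
    rw [autK_apply, autK_apply] at h3
    have := (Prod.ext_iff.mp (co.injective h3)).2
    simpa using this
  · rintro ⟨φ, hφ⟩
    obtain ⟨k, rfl⟩ := ker_imp co hmul hF hm φ hφ
    exact ⟨k, rfl⟩

theorem card_range : Nat.card (rho co hmul hF hm).range = (2 ^ (2 * m + 1) - 1) * (2 * m + 1) := by
  have h1 : Nat.card (Fˣ × (F ≃+* F)) = Nat.card (rho co hmul hF hm).range := by
    refine Nat.card_congr (Equiv.ofBijective
      (fun p => ⟨rho co hmul hF hm (autLS co hmul p.1 p.2), ⟨_, rfl⟩⟩) ⟨?_, ?_⟩)
    · rintro ⟨l, σ⟩ ⟨l', σ'⟩ h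
      have h3 : ∀ a, (l : F) * σ a = (l' : F) * σ' a := by
        intro a
        have h4 := congrArg (fun x : (rho co hmul hF hm).range => (x : Equiv.Perm F) a) h
        simp only at h4
        rw [rho_apply, rho_apply, fA_autLS, fA_autLS] at h4
        exact h4
      have hl : l = l' := by
        apply Units.ext
        have := h3 1
        simpa using this
      subst hl
      have hσ : σ = σ' := by
        ext a
        exact mul_left_cancel₀ l.ne_zero (h3 a)
      rw [hσ]
    · rintro ⟨_, φ, rfl⟩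
      obtain ⟨l, σ, h3, -⟩ := structure_aut co hmul hF hm φ
      refine ⟨(l, σ), Subtype.ext ?_⟩
      ext a
      show fA co (autLS co hmul l σ) a = fA co φ a
      rw [fA_autLS, h3]
  classical
  rw [← h1, Nat.card_prod, card_gal_Sz hF, Nat.card_eq_fintype_card, Fintype.card_units, hF]

include hF in
theorem card_addHom : Nat.card (F →+ F) = 2 ^ ((2 * m + 1) ^ 2) := by
  haveI := charP_two hF
  letI := ZMod.algebra F 2
  haveI : Finite F := Finite.of_fintype F
  haveI : Module.Finite (ZMod 2) F := Module.Finite.of_finite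
  have hfr : Module.finrank (ZMod 2) F = 2 * m + 1 := by
    have h1 := Module.natCard_eq_pow_finrank (K := ZMod 2) (V := F)
    rw [Nat.card_eq_fintype_card, hF, Nat.card_zmod] at h1
    exact (Nat.pow_right_injective (le_refl 2) h1).symm
  rw [Nat.card_congr (AddMonoidHom.toZModLinearMapEquiv 2 (M := F) (M₁ := F)).toEquiv,
    Module.natCard_eq_pow_finrank (K := ZMod 2) (V := F →ₗ[ZMod 2] F), Nat.card_zmod,
    Module.finrank_linearMap, hfr]
  ring_nf

theorem pCore_eq : Cfsg.pCore 2 (MulAut S) = (rho co hmul hF hm).ker := by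
  have hcard := card_ker co hmul hF hm
  rw [card_addHom hF] at hcard
  apply le_antisymm
  · unfold Cfsg.pCore
    apply sSup_le
    rintro N ⟨-, hN⟩ x hx
    obtain ⟨k, hk⟩ := hN ⟨x, hx⟩
    have hk' : x ^ (2 ^ k) = 1 := congrArg Subtype.val hk
    rw [MonoidHom.mem_ker]
    set y := (rho co hmul hF hm).rangeRestrict x with hy
    have h1 : y ^ (2 ^ k) = 1 := by
      rw [hy, ← map_pow, hk', map_one]
    have h3 := orderOf_dvd_of_pow_eq_one h1
    have h4 := orderOf_dvd_natCard y
    rw [card_range] at h4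
    have hodd : Odd ((2 ^ (2 * m + 1) - 1) * (2 * m + 1)) := by
      apply Odd.mul
      · apply Nat.Even.sub_odd (Nat.one_le_two_pow) (Even.pow_of_ne_zero even_two (by omega)) odd_one
      · exact ⟨m, rfl⟩
    have hcop : Nat.Coprime (2 ^ k) ((2 ^ (2 * m + 1) - 1) * (2 * m + 1)) :=
      Nat.Coprime.pow_left _ (Nat.coprime_two_left.mpr hodd)
    have h5 : orderOf y = 1 := Nat.eq_one_of_dvd_coprimes hcop h3 h4
    have h6 : y = 1 := orderOf_eq_one_iff.mp h5
    have h7 := congrArg Subtype.val h6
    exact h7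
  · unfold Cfsg.pCore
    apply le_sSup
    refine ⟨MonoidHom.normal_ker _, ?_⟩
    exact IsPGroup.of_card hcard

include co hmul hF hm in
theorem main_abstract :
    Cfsg.IsElementaryAbelian 2 (Cfsg.pCore 2 (MulAut S)) ∧
      Nat.card ↥(Cfsg.pCore 2 (MulAut S)) = 2 ^ ((2 * m + 1) ^ 2) ∧
      Nat.card (MulAut S) = 2 ^ ((2 * m + 1) ^ 2) * ((2 * m + 1) * (2 ^ (2 * m + 1) - 1)) := by
  have hcard := card_ker co hmul hF hm
  rw [card_addHom hF] at hcard
  rw [pCore_eq co hmul hF hm]
  refine ⟨⟨?_, ?_⟩, hcard, ?_⟩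
  · refine ⟨⟨?_⟩⟩
    rintro ⟨x, hx⟩ ⟨y, hy⟩
    obtain ⟨k, rfl⟩ := ker_imp co hmul hF hm x hx
    obtain ⟨l, rfl⟩ := ker_imp co hmul hF hm y hy
    apply Subtype.ext
    show autK co hmul k * autK co hmul l = autK co hmul l * autK co hmul k
    rw [autK_mul, autK_mul, add_comm]
  · intro x hx
    obtain ⟨k, rfl⟩ := ker_imp co hmul hF hm x hx
    rw [pow_two, autK_mul]
    have h2 := two_zero hF
    have : k + k = 0 := by
      ext a
      simp only [AddMonoidHom.add_apply, AddMonoidHom.zero_apply]
      linear_combination (k a) * h2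
    rw [this, autK_zero]
  · have h1 := Subgroup.card_mul_index (rho co hmul hF hm).ker
    rw [Subgroup.index_ker, card_range, hcard] at h1
    rw [← h1]
    ring

end Cfsg.Agent.Lib.SzSylowAut
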