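import Cfsg.Agent.Lib.Suzuki.Basic

/-! A Hua-type lemma: additive bijections of the field of order `2 ^ (2m+1)` compatible with
`a ↦ a ^ (σ + 1)` are semilinear. -/

set_option autoImplicit false

namespace Cfsg.Agent.Lib.SzSylowAut

open Cfsg.Agent.Lib.Suzuki

variable {F : Type*} [Field F]

/-- Hua's identity in characteristic two. -/
theorem hua_id (h2 : (2 : F) = 0) {a b : F} (ha : a ≠ 0) (hb : b ≠ 0) (hab : a * b ≠ 1) :
    (a⁻¹ + (b⁻¹ + a)⁻¹)⁻¹ = a + a ^ 2 * b := by
  have hd : 1 + a * b ≠ 0 := by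
    intro h
    apply hab
    linear_combination h - h2
  have e1 : b⁻¹ + a = (1 + a * b) / b := by field_simp
  have e2 : a⁻¹ + (b⁻¹ + a)⁻¹ = (a * (1 + a * b))⁻¹ := by
    rw [e1]
    field_simp
    linear_combination a * b * h2
  rw [e2, inv_inv]
  ring

section Abstract

variable [Fintype F] (h2 : (2 : F) = 0) (T : AddSubgroup F) (hT : T.index = 2)
  (g : F ≃+ F)
  (hK : ∀ x : F, x ≠ 0 → ∀ y, y * x⁻¹ ∈ T ↔ g y * (g x)⁻¹ ∈ T)

include hK in
theorem hK' (u y : F) : y * u ∈ T ↔ g y * (g u⁻¹)⁻¹ ∈ T := by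
  by_cases hu : u = 0
  · subst hu
    simp [T.zero_mem]
  · have := hK u⁻¹ (inv_ne_zero hu) y
    rwa [inv_inv] at this

include h2 hT hK in
theorem h_add (u v : F) : (g (u + v)⁻¹)⁻¹ = (g u⁻¹)⁻¹ + (g v⁻¹)⁻¹ := by
  set z := (g (u + v)⁻¹)⁻¹ + (g u⁻¹)⁻¹ + (g v⁻¹)⁻¹ with hz
  have h3 : ∀ y, g y * z ∈ T := by
    intro y
    have e : g y * z = g y * (g (u + v)⁻¹)⁻¹ + (g y * (g u⁻¹)⁻¹ + g y * (g v⁻¹)⁻¹) := by
      rw [hz]; ring
    rw [e, AddSubgroup.add_mem_iff_of_index_two hT, AddSubgroup.add_mem_iff_of_index_two hT,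
      ← hK' T g hK (u + v) y, ← hK' T g hK u y, ← hK' T g hK v y, mul_add,
      AddSubgroup.add_mem_iff_of_index_two hT]
  have hz0 : z = 0 := by
    by_contra hne
    have htop : T = ⊤ := by
      rw [eq_top_iff]
      intro w _
      have := h3 (g.symm (w * z⁻¹))
      rw [AddEquiv.apply_symm_apply] at this
      have e : w * z⁻¹ * z = w := by field_simp
      rwa [e] at this
    rw [htop, AddSubgroup.index_top] at hT
    omega
  rw [hz] at hz0
  linear_combination hz0 - ((g u⁻¹)⁻¹ + (g v⁻¹)⁻¹) * h2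

include h2 hT hK in
theorem g_mul_aux {a b : F} (ha : a ≠ 0) (hb : b ≠ 0) (hab : a * b ≠ 1) :
    g (a ^ 2 * b) = (g a) ^ 2 * (g b⁻¹)⁻¹ := by
  have hinj := g.injective
  have hg0 : ∀ {x : F}, x ≠ 0 → g x ≠ 0 := fun {x} hx h => hx (hinj (by rw [h, map_zero]))
  have hA : g a ≠ 0 := hg0 ha
  have hB : (g b⁻¹)⁻¹ ≠ 0 := inv_ne_zero (hg0 (inv_ne_zero hb))
  have hne : b⁻¹ + a ≠ 0 := by
    intro h
    apply hab
    have h' : a = b⁻¹ := by linear_combination h - b⁻¹ * h2
    rw [h']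
    exact inv_mul_cancel₀ hb
  have hAB : g a * (g b⁻¹)⁻¹ ≠ 1 := by
    intro h
    have h' : g a = g b⁻¹ := (mul_inv_eq_one₀ (hg0 (inv_ne_zero hb))).mp h
    apply hne
    apply hinj
    rw [map_add, map_zero, ← h']
    linear_combination g a * h2
  have e1 := hua_id h2 ha hb hab
  have e2 := hua_id h2 hA hB hAB
  have e3 : g (a + a ^ 2 * b) = ((g a)⁻¹ + (g (b⁻¹) + g a)⁻¹)⁻¹ := by
    rw [← e1]
    have e4 := h_add h2 T hT g hK a⁻¹ (b⁻¹ + a)⁻¹
    rw [inv_inv, inv_inv] at e4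
    have e5 : g ((a⁻¹ + (b⁻¹ + a)⁻¹)⁻¹) = ((g ((a⁻¹ + (b⁻¹ + a)⁻¹)⁻¹))⁻¹)⁻¹ := (inv_inv _).symm
    rw [e5, e4, map_add]
  rw [inv_inv] at e2
  rw [e2, map_add] at e3
  linear_combination e3

include h2 hT hK in
/-- A normalised additive bijection with the coset property is a field automorphism. -/
theorem exists_ringEquiv (hsq : ∀ y : F, ∃ x : F, x ^ 2 = y) (g1 : g 1 = 1) :
    ∃ σ : F ≃+* F, ∀ x, σ x = g x := by
  have hinj := g.injective
  have hg0 : ∀ {x : F}, x ≠ 0 → g x ≠ 0 := fun {x} hx h => hx (hinj (by rw [h, map_zero]))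
  -- `g = h`
  have hgh : ∀ b : F, g b = (g b⁻¹)⁻¹ := by
    intro b
    by_cases hb0 : b = 0
    · subst hb0; simp
    by_cases hb1 : b = 1
    · subst hb1; simp [g1]
    have := g_mul_aux h2 T hT g hK (a := 1) (b := b) one_ne_zero hb0 (by simpa using hb1)
    simpa [g1] using this
  have hmul2 : ∀ a b : F, g (a ^ 2 * b) = (g a) ^ 2 * g b := by
    intro a b
    by_cases ha : a = 0
    · subst ha; simp
    by_cases hb : b = 0
    · subst hb; simp
    by_cases hab : a * b = 1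
    · have hb' : b = a⁻¹ := eq_inv_of_mul_eq_one_right hab
      subst hb'
      have e : a ^ 2 * a⁻¹ = a := by field_simp
      rw [e, hgh a⁻¹, inv_inv]
      have hA := hg0 ha
      field_simp
    · rw [g_mul_aux h2 T hT g hK ha hb hab, ← hgh]
  have hsq' : ∀ a : F, g (a ^ 2) = (g a) ^ 2 := by
    intro a
    have := hmul2 a 1
    simpa [g1] using this
  refine ⟨{ g with map_mul' := ?_ }, fun x => rfl⟩
  intro x y
  obtain ⟨a, rfl⟩ := hsq x
  show g (a ^ 2 * y) = g (a ^ 2) * g y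
  rw [hmul2, hsq']

end Abstract

section Key

variable [Fintype F] {m : ℕ} (hF : Fintype.card F = 2 ^ (2 * m + 1))

/-- The map `a ↦ a ^ σ * a`. -/
def PP (m : ℕ) (a : F) : F := a ^ (2 ^ (m + 1)) * a

/-- The map `u ↦ u + u ^ σ`. -/
noncomputable def wp : F →+ F :=
  AddMonoidHom.mk' (fun u => u + u ^ (2 ^ (m + 1))) (by
    intro a b
    rw [sg_add hF]
    ring)

theorem wp_apply (u : F) : wp hF u = u + u ^ (2 ^ (m + 1)) := rfl

include hF in
theorem PP_eq_pow (a : F) : PP m a = a ^ (2 ^ (m + 1) + 1) := by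
  unfold PP; ring

include hF in
theorem PP_inj {a b : F} (h : PP m a = PP m b) : a = b := by
  by_cases ha : a = 0
  · subst ha
    have : PP m b = 0 := by rw [← h]; simp [PP]
    have hb : b = 0 := by
      by_contra hb
      exact (mul_ne_zero (pow_ne_zero _ hb) hb) this
    exact hb.symm
  by_cases hb : b = 0
  · subst hb
    have : PP m a = 0 := by rw [h]; simp [PP]
    exact absurd this (mul_ne_zero (pow_ne_zero _ ha) ha)
  rw [PP_eq_pow hF, PP_eq_pow hF] at h
  exact sg1_inj hF ha hb h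

include hF in
theorem PP_surj (z : F) : ∃ a, PP m a = z := by
  by_cases hz : z = 0
  · subst hz
    exact ⟨0, by simp [PP]⟩
  · obtain ⟨t, -, ht⟩ := sg1_surj hF hz
    exact ⟨t, by rw [PP_eq_pow hF, ht]⟩

theorem PP_mul (a b : F) : PP m (a * b) = PP m a * PP m b := by
  unfold PP; rw [mul_pow]; ring

theorem PP_one : PP m (1 : F) = 1 := by simp [PP]

theorem PP_ringEquiv (σ : F ≃+* F) (a : F) : σ (PP m a) = PP m (σ a) := by
  unfold PP; rw [map_mul, map_pow]

include hF in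
theorem PP_add (a c : F) : PP m (a + c) = PP m a + PP m c + (a ^ (2 ^ (m + 1)) * c + c ^ (2 ^ (m + 1)) * a) := by
  unfold PP; rw [sg_add hF]; ring

include hF in
theorem index_wp : (wp hF).range.index = 2 := by
  have h2 := two_zero hF
  haveI : Finite F := Finite.of_fintype F
  have hker : Nat.card (wp hF).ker = 2 := by
    have hne : (0 : F) ≠ 1 := zero_ne_one
    have hset : ((wp hF).ker : Set F) = {0, 1} := by
      ext x
      simp only [SetLike.mem_coe, AddMonoidHom.mem_ker, wp_apply, Set.mem_insert_iff,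
        Set.mem_singleton_iff]
      constructor
      · intro h
        apply sg_fix hF
        linear_combination h - x * h2
      · rintro (rfl | rfl)
        · simp
        · simp only [one_pow]
          linear_combination h2
    show Nat.card ((wp hF).ker : Set F) = 2
    rw [Nat.card_coe_set_eq, hset, Set.ncard_pair hne]
  have h1 := AddSubgroup.card_mul_index (wp hF).range
  have h3 := AddSubgroup.card_mul_index (wp hF).ker
  rw [AddSubgroup.index_ker, hker] at h3
  have h4 : 0 < Nat.card (wp hF).range := Nat.card_pos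
  have h5 : Nat.card (wp hF).range * (wp hF).range.index = Nat.card (wp hF).range * 2 := by
    rw [h1, ← h3, mul_comm]
  exact Nat.eq_of_mul_eq_mul_left h4 h5

include hF in
theorem K1 (f g : F ≃+ F) (h : ∀ a, g (PP m a) = PP m (f a)) {x : F} (hx : x ≠ 0) {y : F}
    (hy : y * x⁻¹ ∈ (wp hF).range) : g y * (g x)⁻¹ ∈ (wp hF).range := by
  have h2 := two_zero hF
  obtain ⟨a, rfl⟩ := PP_surj hF x
  have ha : a ≠ 0 := by
    rintro rfl
    exact hx (by simp [PP])
  obtain ⟨u, hu⟩ := hy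
  rw [wp_apply] at hu
  have hy' : y = a ^ (2 ^ (m + 1)) * (u * a) + (u * a) ^ (2 ^ (m + 1)) * a := by
    have : y = (u + u ^ (2 ^ (m + 1))) * PP m a := by
      rw [hu]
      field_simp
    rw [this, mul_pow]
    unfold PP
    ring
  set c := u * a with hc
  have hA : f a ≠ 0 := fun h0 => ha (f.injective (by rw [h0, map_zero]))
  have e1 : g y = (f a) ^ (2 ^ (m + 1)) * f c + (f c) ^ (2 ^ (m + 1)) * f a := by
    have e2 := h (a + c)
    rw [map_add f, PP_add hF (f a), PP_add hF a c, map_add g, map_add g, h a, h c] at e2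
    rw [hy']
    have e3 := add_left_cancel e2
    exact e3
  refine ⟨f c * (f a)⁻¹, ?_⟩
  rw [wp_apply, h a, e1]
  unfold PP
  rw [mul_pow, inv_pow]
  have hA' : (f a) ^ (2 ^ (m + 1)) ≠ 0 := pow_ne_zero _ hA
  field_simp

include hF in
theorem K2 (f g : F ≃+ F) (h : ∀ a, g (PP m a) = PP m (f a)) (x : F) (hx : x ≠ 0) (y : F) :
    y * x⁻¹ ∈ (wp hF).range ↔ g y * (g x)⁻¹ ∈ (wp hF).range := by
  refine ⟨K1 hF f g h hx, fun hy => ?_⟩
  have h' : ∀ a, g.symm (PP m a) = PP m (f.symm a) := by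
    intro a
    have := h (f.symm a)
    rw [AddEquiv.apply_symm_apply] at this
    rw [← this, AddEquiv.symm_apply_apply]
  have hgx : g x ≠ 0 := fun h0 => hx (g.injective (by rw [h0, map_zero]))
  have := K1 hF f.symm g.symm h' hgx hy
  simpa using this

include hF in
/-- The key classification of compatible additive bijections. -/
theorem key (f g : F ≃+ F) (h : ∀ a, g (PP m a) = PP m (f a)) :
    ∃ (l : Fˣ) (σ : F ≃+* F), (∀ a, f a = (l : F) * σ a) ∧ (∀ b, g b = PP m (l : F) * σ b) := by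
  have h2 := two_zero hF
  have hl : f 1 ≠ 0 := fun h0 => one_ne_zero (f.injective (by rw [h0, map_zero]))
  set μ := PP m (f 1) with hμ
  have hμ0 : μ ≠ 0 := mul_ne_zero (pow_ne_zero _ hl) hl
  have hg1 : g 1 = μ := by
    have := h 1
    rwa [PP_one] at this
  let g' : F ≃+ F :=
    { toFun := fun x => μ⁻¹ * g x
      invFun := fun y => g.symm (μ * y)
      left_inv := fun x => by
        show g.symm (μ * (μ⁻¹ * g x)) = x
        rw [mul_inv_cancel_left₀ hμ0, AddEquiv.symm_apply_apply]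
      right_inv := fun y => by
        show μ⁻¹ * g (g.symm (μ * y)) = y
        rw [AddEquiv.apply_symm_apply, inv_mul_cancel_left₀ hμ0]
      map_add' := fun x y => by
        show μ⁻¹ * g (x + y) = μ⁻¹ * g x + μ⁻¹ * g y
        rw [map_add, mul_add] }
  have hg' : ∀ x, g' x = μ⁻¹ * g x := fun x => rfl
  have hK : ∀ x : F, x ≠ 0 → ∀ y, y * x⁻¹ ∈ (wp hF).range ↔ g' y * (g' x)⁻¹ ∈ (wp hF).range := by
    intro x hx y
    rw [K2 hF f g h x hx y, hg', hg']
    have : μ⁻¹ * g y * (μ⁻¹ * g x)⁻¹ = g y * (g x)⁻¹ := by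
      rw [mul_inv, inv_inv]
      field_simp
    rw [this]
  obtain ⟨σ, hσ⟩ := exists_ringEquiv h2 (wp hF).range (index_wp hF) g' hK (sq_surj hF)
    (by rw [hg', hg1, inv_mul_cancel₀ hμ0])
  have hgσ : ∀ b, g b = μ * σ b := by
    intro b
    rw [hσ, hg', mul_inv_cancel_left₀ hμ0]
  refine ⟨Units.mk0 (f 1) hl, σ, ?_, ?_⟩
  · intro a
    apply PP_inj hF
    rw [← h, hgσ, PP_ringEquiv, Units.val_mk0, PP_mul]
  · intro b
    exact hgσ b

end Key

end Cfsg.Agent.Lib.SzSylowAut
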